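import Cfsg.Agent.Lib.PermWreath.Basic

/-!
# `(S₂ ≀ S₄) ∩ A₈` is contained in the affine group
-/

set_option autoImplicit false
set_option linter.unusedSectionVars false

open Equiv Equiv.Perm
open Cfsg.Agent.Lib.PermWreath.Basic

namespace Cfsg.Agent.Lib.PermWreath.Agl

/-- The sum of three points of the affine space. -/
def x3 (a b c : Fin 4 × Fin 2) : Fin 4 × Fin 2 := (a.1 ^^^ b.1 ^^^ c.1, a.2 ^^^ b.2 ^^^ c.2)

/-- The affine group. -/
def aff : Subgroup (Perm (Fin 4 × Fin 2)) where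
  carrier := {g | ∀ x y z, g (x3 x y z) = x3 (g x) (g y) (g z)}
  mul_mem' := by
    intro g h hg hh x y z
    simp only [Perm.mul_apply]
    rw [hh, hg]
  one_mem' := by
    intro x y z
    rfl
  inv_mem' := by
    intro g hg x y z
    apply g.injective
    rw [hg]
    simp

theorem mem_aff (g : Perm (Fin 4 × Fin 2)) :
    g ∈ aff ↔ ∀ x y z, g (x3 x y z) = x3 (g x) (g y) (g z) := Iff.rfl

set_option maxRecDepth 1000000 in
set_option maxHeartbeats 0 in
theorem aff_fact : ∀ (σ : Perm (Fin 4)) (τ : Fin 4 → Perm (Fin 2)),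
    sign (prodShear σ τ : Perm (Fin 4 × Fin 2)) = 1 →
    ∀ x y z : Fin 4 × Fin 2, (prodShear σ τ : Perm (Fin 4 × Fin 2)) (x3 x y z) =
      x3 ((prodShear σ τ : Perm (Fin 4 × Fin 2)) x) ((prodShear σ τ : Perm (Fin 4 × Fin 2)) y)
        ((prodShear σ τ : Perm (Fin 4 × Fin 2)) z) := by
  decide +kernel

theorem exists_shear (g : Perm (Fin 4 × Fin 2)) (hg : ∀ x y, x.1 = y.1 ↔ (g x).1 = (g y).1) :
    ∃ (σ : Perm (Fin 4)) (τ : Fin 4 → Perm (Fin 2)), g = prodShear σ τ := by
  have h1 : Function.Injective (fun i : Fin 4 => (g (i, 0)).1) := by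
    intro i j hij
    exact (hg (i, 0) (j, 0)).mpr hij
  have h2 : ∀ i : Fin 4, Function.Injective (fun u : Fin 2 => (g (i, u)).2) := by
    intro i u v huv
    have h3 : (g (i, u)).1 = (g (i, v)).1 := (hg (i, u) (i, v)).mp rfl
    have h4 : g (i, u) = g (i, v) := Prod.ext h3 huv
    have h5 := g.injective h4
    exact (Prod.ext_iff.mp h5).2
  refine ⟨Equiv.ofBijective _ (Finite.injective_iff_bijective.mp h1),
    fun i => Equiv.ofBijective _ (Finite.injective_iff_bijective.mp (h2 i)), ?_⟩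
  refine Equiv.ext fun ⟨i, u⟩ => Prod.ext ?_ ?_
  · have h3 : (g (i, u)).1 = (g (i, 0)).1 := (hg (i, u) (i, 0)).mp rfl
    simpa using h3
  · simp

/-- An even affine permutation not preserving the pairs. -/
def hh : Perm (Fin 4 × Fin 2) := swap (0, 1) (1, 0) * swap (2, 1) (3, 0)

/-- An even non-affine permutation. -/
def yy : Perm (Fin 4 × Fin 2) := swap (0, 0) (0, 1) * swap (0, 0) (1, 0)

set_option maxRecDepth 100000 in
theorem hh_facts : sign hh = 1 ∧ hh ∈ aff ∧ (hh (0, 0)).1 ≠ (hh (0, 1)).1 := by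
  refine ⟨by decide, ?_, by decide⟩
  rw [mem_aff]
  decide +kernel

set_option maxRecDepth 100000 in
theorem yy_facts : sign yy = 1 ∧ yy ∉ aff := by
  refine ⟨by decide, ?_⟩
  rw [mem_aff]
  decide +kernel

variable {Ω : Type*} [Fintype Ω] [DecidableEq Ω]

theorem mem_pstab_iff {f : Ω → Fin 4} {e : Ω ≃ Fin 4 × Fin 2} (he : ∀ x, (e x).1 = f x)
    (u : Perm Ω) :
    (∀ x y, x.1 = y.1 ↔ (e.permCongrHom u x).1 = (e.permCongrHom u y).1) ↔ u ∈ pstab f := by
  have h1 : ∀ x, (e.permCongrHom u x).1 = f (u (e.symm x)) := by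
    intro x
    rw [← he]
    rfl
  constructor
  · intro h x y
    have h2 := h (e x) (e y)
    rw [h1, h1, he, he] at h2
    simpa using h2
  · intro h x y
    have h2 := h (e.symm x) (e.symm y)
    rw [← he (e.symm x), ← he (e.symm y)] at h2
    rw [h1, h1, ← h2]
    simp

theorem main (f : Ω → Fin 4) (hf : ∀ i : Fin 4, Nat.card {x : Ω // f x = i} = 2) :
    ¬ IsCoatom ((Subgroup.closure {g : Perm Ω | ∀ x y : Ω, f x = f y ↔ f (g x) = f (g y)} ⊓
      alternatingGroup Ω).subgroupOf (alternatingGroup Ω)) := by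
  rw [closure_eq]
  intro hco
  obtain ⟨e, he⟩ := exists_coords f hf
  have hsign : ∀ u : Perm Ω, sign (e.permCongrHom u) = sign u := fun u => sign_permCongr e u
  let K : Subgroup (Perm Ω) := aff.comap e.permCongrHom.toMonoidHom
  have hKmem : ∀ u : Perm Ω, u ∈ K ↔ e.permCongrHom u ∈ aff := fun u => Iff.rfl
  have hle : (pstab f ⊓ alternatingGroup Ω).subgroupOf (alternatingGroup Ω) ≤
      K.subgroupOf (alternatingGroup Ω) := by
    intro x hx
    obtain ⟨hx1, hx2⟩ := Subgroup.mem_subgroupOf.mp hx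
    rw [Subgroup.mem_subgroupOf, hKmem, mem_aff]
    obtain ⟨σ, τ, hg⟩ := exists_shear _ ((mem_pstab_iff he _).mpr hx1)
    have hs : sign (prodShear σ τ : Perm (Fin 4 × Fin 2)) = 1 := by
      rw [← hg, hsign]
      exact hx2
    rw [hg]
    exact aff_fact σ τ hs
  have hh' : e.permCongrHom.symm hh ∈ alternatingGroup Ω := by
    change sign _ = 1
    rw [← hsign, MulEquiv.apply_symm_apply]
    exact hh_facts.1
  have hlt : (pstab f ⊓ alternatingGroup Ω).subgroupOf (alternatingGroup Ω) <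
      K.subgroupOf (alternatingGroup Ω) := by
    refine lt_of_le_of_ne hle ?_
    intro heq
    have h1 : (⟨_, hh'⟩ : alternatingGroup Ω) ∈ K.subgroupOf (alternatingGroup Ω) := by
      rw [Subgroup.mem_subgroupOf, hKmem]
      change e.permCongrHom (e.permCongrHom.symm hh) ∈ aff
      rw [MulEquiv.apply_symm_apply]
      exact hh_facts.2.1
    rw [← heq, Subgroup.mem_subgroupOf] at h1
    have h2 := (mem_pstab_iff he _).mpr h1.1
    change ∀ x y : Fin 4 × Fin 2, x.1 = y.1 ↔ (e.permCongrHom (e.permCongrHom.symm hh) x).1 =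
      (e.permCongrHom (e.permCongrHom.symm hh) y).1 at h2
    rw [MulEquiv.apply_symm_apply] at h2
    exact hh_facts.2.2 ((h2 (0, 0) (0, 1)).mp rfl)
  have htop := hco.2 _ hlt
  have hy' : e.permCongrHom.symm yy ∈ alternatingGroup Ω := by
    change sign _ = 1
    rw [← hsign, MulEquiv.apply_symm_apply]
    exact yy_facts.1
  have h3 : (⟨_, hy'⟩ : alternatingGroup Ω) ∈ K.subgroupOf (alternatingGroup Ω) := by
    rw [htop]
    trivial
  rw [Subgroup.mem_subgroupOf, hKmem] at h3
  change e.permCongrHom (e.permCongrHom.symm yy) ∈ aff at h3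
  rw [MulEquiv.apply_symm_apply] at h3
  exact yy_facts.2 h3

end Cfsg.Agent.Lib.PermWreath.Agl
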