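import Cfsg.Agent.Lib.PermWreath.Basic

/-!
# The even part of the imprimitive wreath product

Primitivity of overgroups of the even partition stabilizer.
-/

set_option autoImplicit false
set_option linter.unusedSectionVars false

open Equiv Equiv.Perm MulAction
open scoped Pointwise
open Cfsg.Agent.Lib.PermWreath.Basic

namespace Cfsg.Agent.Lib.PermWreath.Even

variable {Ω : Type*} [Fintype Ω] [DecidableEq Ω] {a b : ℕ}

/-- The even partition stabilizer. -/
abbrev W (f : Ω → Fin b) : Subgroup (Perm Ω) := pstab f ⊓ alternatingGroup Ω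

section Counting

variable (f : Ω → Fin b)

theorem fibre_card (hf : ∀ i : Fin b, Nat.card {x : Ω // f x = i} = a) (i : Fin b) :
    (Finset.univ.filter (fun x => f x = i)).card = a := by
  have := hf i
  rw [Nat.card_eq_fintype_card, Fintype.card_subtype] at this
  exact this

theorem exists_two (hf : ∀ i : Fin b, Nat.card {x : Ω // f x = i} = a) (ha : 2 ≤ a) (i : Fin b) :
    ∃ c d, c ≠ d ∧ f c = i ∧ f d = i := by
  have h := fibre_card f hf i
  have h1 : 1 < (Finset.univ.filter (fun x => f x = i)).card := by omega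
  obtain ⟨c, hc, d, hd, hcd⟩ := Finset.one_lt_card.mp h1
  exact ⟨c, d, hcd, (Finset.mem_filter.mp hc).2, (Finset.mem_filter.mp hd).2⟩

theorem exists_two_avoid (hf : ∀ i : Fin b, Nat.card {x : Ω // f x = i} = a) (ha : 3 ≤ a) (x : Ω) :
    ∃ c d, c ≠ d ∧ f c = f x ∧ f d = f x ∧ c ≠ x ∧ d ≠ x := by
  have h := fibre_card f hf (f x)
  have hx : x ∈ Finset.univ.filter (fun y => f y = f x) := by simp
  have h1 : 1 < ((Finset.univ.filter (fun y => f y = f x)).erase x).card := by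
    rw [Finset.card_erase_of_mem hx]
    omega
  obtain ⟨c, hc, d, hd, hcd⟩ := Finset.one_lt_card.mp h1
  rw [Finset.mem_erase, Finset.mem_filter] at hc hd
  exact ⟨c, d, hcd, hc.2.2, hd.2.2, hc.1, hd.1⟩

theorem exists_pair_avoid (hf : ∀ i : Fin b, Nat.card {x : Ω // f x = i} = a) (ha : 2 ≤ a)
    (hb : 2 ≤ b) (hne : ¬ (a = 2 ∧ b = 2)) (x y : Ω) :
    ∃ c d, c ≠ d ∧ f c = f d ∧ c ≠ x ∧ c ≠ y ∧ d ≠ x ∧ d ≠ y := by
  by_cases h : ∃ i, i ≠ f x ∧ i ≠ f y
  · obtain ⟨i, h1, h2⟩ := h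
    obtain ⟨c, d, hcd, hc, hd⟩ := exists_two f hf ha i
    refine ⟨c, d, hcd, hc.trans hd.symm, ?_, ?_, ?_, ?_⟩
    · rintro rfl; exact h1 hc.symm
    · rintro rfl; exact h2 hc.symm
    · rintro rfl; exact h1 hd.symm
    · rintro rfl; exact h2 hd.symm
  · push Not at h
    have hle : b ≤ 2 := by
      have h1 : (Finset.univ : Finset (Fin b)) ⊆ {f x, f y} := by
        intro i _
        by_cases hi : i = f x
        · simp [hi]
        · simp [h i hi]
      have h2 := Finset.card_le_card h1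
      rw [Finset.card_univ, Fintype.card_fin] at h2
      exact h2.trans Finset.card_le_two
    have hb2 : b = 2 := by omega
    have hxy : f x ≠ f y := by
      intro hxy
      have h0 : (⟨0, by omega⟩ : Fin b) = ⟨1, by omega⟩ := by
        by_cases h3 : (⟨0, by omega⟩ : Fin b) = f x
        · by_cases h4 : (⟨1, by omega⟩ : Fin b) = f x
          · rw [h3, h4]
          · have := h _ h4
            rw [h3, this, hxy]
        · have h5 := h _ h3
          by_cases h4 : (⟨1, by omega⟩ : Fin b) = f x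
          · rw [h5, h4, hxy]
          · rw [h5, h _ h4]
      simp [Fin.ext_iff] at h0
    have ha3 : 3 ≤ a := by
      by_contra hcon
      exact hne ⟨by omega, hb2⟩
    obtain ⟨c, d, hcd, hc, hd, hcx, hdx⟩ := exists_two_avoid f hf ha3 x
    refine ⟨c, d, hcd, hc.trans hd.symm, hcx, ?_, hdx, ?_⟩
    · rintro rfl; exact hxy hc.symm
    · rintro rfl; exact hxy hd.symm

end Counting

section Moves

variable (f : Ω → Fin b)

theorem even_fix {t : Perm Ω} (ht : t ∈ pstab f) {c d : Ω} (hcd : c ≠ d) (hfcd : f c = f d) :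
    ∃ t' ∈ W f, ∀ x, x ≠ c → x ≠ d → t' x = t x := by
  rcases Int.units_eq_one_or (sign t) with h | h
  · exact ⟨t, ⟨ht, h⟩, fun _ _ _ => rfl⟩
  · refine ⟨t * swap c d, ⟨(pstab f).mul_mem ht (swap_mem hfcd), ?_⟩, ?_⟩
    · change sign (t * swap c d) = 1
      rw [map_mul, h, sign_swap hcd]
      rfl
    · intro x h1 h2
      rw [Perm.mul_apply, swap_apply_of_ne_of_ne h1 h2]

theorem pstab_move (hf : ∀ i : Fin b, Nat.card {x : Ω // f x = i} = a) (x y : Ω) :
    ∃ t ∈ pstab f, t x = y := by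
  obtain ⟨e, he⟩ := exists_coords f hf
  have hz : f (blockPerm e (swap (f x) (f y)) x) = f y := by
    rw [blockPerm_fst he, swap_apply_left]
  refine ⟨swap (blockPerm e (swap (f x) (f y)) x) y * blockPerm e (swap (f x) (f y)),
    (pstab f).mul_mem (swap_mem hz) (blockPerm_mem he _), ?_⟩
  rw [Perm.mul_apply, swap_apply_left]

theorem W_move (hf : ∀ i : Fin b, Nat.card {x : Ω // f x = i} = a) (ha : 2 ≤ a)
    (hb : 2 ≤ b) (hne : ¬ (a = 2 ∧ b = 2)) (x y : Ω) : ∃ t ∈ W f, t x = y := by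
  obtain ⟨t, ht, htx⟩ := pstab_move f hf x y
  obtain ⟨c, d, hcd, hfcd, h1, -, h2, -⟩ := exists_pair_avoid f hf ha hb hne x x
  obtain ⟨t', ht', h⟩ := even_fix f ht hcd hfcd
  exact ⟨t', ht', by rw [h x h1.symm h2.symm, htx]⟩

theorem blockPerm_fix {e : Ω ≃ Fin b × Fin a} (he : ∀ x, (e x).1 = f x) (σ : Perm (Fin b)) {x : Ω}
    (hx : σ (f x) = f x) : blockPerm e σ x = x := by
  apply e.injective
  have : (e x).1 = f x := he x
  ext <;> simp [blockPerm, this, hx]

end Moves

section Blocks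

variable {f : Ω → Fin b} {K : Subgroup (Perm Ω)} {B : Set Ω}

theorem block_step (hB : IsBlock K B) {t : Perm Ω} (ht : t ∈ K) {x y : Ω} (hx : x ∈ B)
    (htx : t x ∈ B) (hy : y ∈ B) : t y ∈ B := by
  have h := (isBlock_iff_smul_eq_of_mem.mp hB) (g := ⟨t, ht⟩) hx htx
  have h1 : (⟨t, ht⟩ : K) • y ∈ (⟨t, ht⟩ : K) • B := Set.smul_mem_smul_set hy
  rw [h] at h1
  exact h1

variable (hf : ∀ i : Fin b, Nat.card {x : Ω // f x = i} = a) (ha : 2 ≤ a)
  (hb : 2 ≤ b) (hne : ¬ (a = 2 ∧ b = 2)) (hWK : W f ≤ K)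

include hf ha hb hne hWK

theorem mem_of_same_block (hB : IsBlock K B) {x y y' : Ω} (hx : x ∈ B) (hy : y ∈ B) (hxy : x ≠ y)
    (hfy : f y' = f y) : y' ∈ B := by
  by_cases h1 : y' = x
  · rwa [h1]
  by_cases h2 : y' = y
  · rwa [h2]
  obtain ⟨c, d, hcd, hf', h3, h4, h5, h6⟩ := exists_pair_avoid f hf ha hb hne x y
  obtain ⟨t, ht, htx⟩ := even_fix f (swap_mem hfy.symm : swap y y' ∈ pstab f) hcd hf'
  have h7 : t x = x := by
    rw [htx x h3.symm h5.symm, swap_apply_of_ne_of_ne hxy (Ne.symm h1)]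
  have h8 : t y = y' := by
    rw [htx y h4.symm h6.symm, swap_apply_left]
  have := block_step hB (hWK ht) hx (by rwa [h7]) hy
  rwa [h8] at this

theorem eq_univ_of_two_blocks (hB : IsBlock K B) {p q : Ω} (hp : p ∈ B) (hq : q ∈ B)
    (hpq : f p ≠ f q) : B = Set.univ := by
  have hne' : p ≠ q := fun h => hpq (by rw [h])
  rw [Set.eq_univ_iff_forall]
  intro r
  by_cases h1 : f r = f q
  · exact mem_of_same_block hf ha hb hne hWK hB hp hq hne' h1
  by_cases h2 : f r = f p
  · exact mem_of_same_block hf ha hb hne hWK hB hq hp hne'.symm h2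
  obtain ⟨e, he⟩ := exists_coords f hf
  obtain ⟨c, d, hcd, hf', h3, h4, h5, h6⟩ := exists_pair_avoid f hf ha hb hne p q
  obtain ⟨t, ht, htx⟩ := even_fix f (blockPerm_mem he (swap (f q) (f r))) hcd hf'
  have h7 : t p = p := by
    rw [htx p h3.symm h5.symm]
    exact blockPerm_fix f he _ (swap_apply_of_ne_of_ne hpq (Ne.symm h2))
  have h8 : f (t q) = f r := by
    rw [htx q h4.symm h6.symm, blockPerm_fst he, swap_apply_left]
  have h9 := block_step hB (hWK ht) hp (by rwa [h7]) hq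
  by_cases h10 : t q = p
  · exact absurd (by rw [← h8, h10]) (Ne.symm h2)
  · exact mem_of_same_block hf ha hb hne hWK hB hp h9 (Ne.symm h10) h8.symm

theorem le_pstab_of_fibre_block {i : Fin b} (hB : IsBlock K {x | f x = i}) : K ≤ pstab f := by
  have key : ∀ g ∈ K, ∀ u v, f u = f v → f (g u) = f (g v) := by
    intro g hg u v huv
    obtain ⟨x₀, -, -, hx₀, -⟩ := exists_two f hf ha i
    obtain ⟨t₁, ht₁, ht₁x⟩ := W_move f hf ha hb hne x₀ u
    have hv₀ : f (t₁⁻¹ v) = f x₀ := by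
      have h1 := (((pstab f).inv_mem ht₁.1) u v).mp huv
      rw [← h1, ← ht₁x]
      simp
    have hg' : g * t₁ ∈ K := K.mul_mem hg (hWK ht₁)
    obtain ⟨t₂, ht₂, ht₂x⟩ := W_move f hf ha hb hne x₀ ((g * t₁) x₀)
    have hh : t₂⁻¹ * (g * t₁) ∈ K := K.mul_mem (K.inv_mem (hWK ht₂)) hg'
    have h1 : (t₂⁻¹ * (g * t₁)) x₀ = x₀ := by
      rw [Perm.mul_apply, ← ht₂x]
      simp
    have h2 := block_step hB hh (x := x₀) (y := t₁⁻¹ v) hx₀ (by rw [h1]; exact hx₀)
      (by change f _ = i; rw [hv₀]; exact hx₀)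
    have h3 : f ((t₂⁻¹ * (g * t₁)) (t₁⁻¹ v)) = f x₀ := by
      change f _ = i at h2
      rw [h2]
      exact hx₀.symm
    have h4 := (ht₂.1 _ _).mp h3
    have h5 : t₂ ((t₂⁻¹ * (g * t₁)) (t₁⁻¹ v)) = g v := by simp
    rw [h5, ht₂x] at h4
    have h6 : (g * t₁) x₀ = g u := by rw [Perm.mul_apply, ht₁x]
    rw [h6] at h4
    exact h4.symm
  intro g hg u v
  refine ⟨key g hg u v, fun h => ?_⟩
  have := key g⁻¹ (K.inv_mem hg) (g u) (g v) h
  simpa using this

/-- Overgroups of the even partition stabilizer not preserving the partition are primitive. -/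
theorem isPreprimitive_of (hK : ¬ K ≤ pstab f) : IsPreprimitive K Ω := by
  have : IsPretransitive K Ω := ⟨fun x y => by
    obtain ⟨t, ht, htx⟩ := W_move f hf ha hb hne x y
    exact ⟨⟨t, hWK ht⟩, htx⟩⟩
  refine { isTrivialBlock_of_isBlock := ?_ }
  intro B hB
  by_cases h : B.Subsingleton
  · exact Or.inl h
  right
  rw [Set.not_subsingleton_iff] at h
  obtain ⟨x, hx, y, hy, hxy⟩ := h
  by_cases h2 : ∃ p ∈ B, ∃ q ∈ B, f p ≠ f q
  · obtain ⟨p, hp, q, hq, hpq⟩ := h2
    exact eq_univ_of_two_blocks hf ha hb hne hWK hB hp hq hpq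
  · push Not at h2
    exfalso
    apply hK
    have hBeq : B = {z | f z = f y} := by
      ext z
      constructor
      · intro hz
        exact h2 z hz y hy
      · intro hz
        exact mem_of_same_block hf ha hb hne hWK hB hx hy hxy hz
    rw [hBeq] at hB
    exact le_pstab_of_fibre_block hf ha hb hne hWK hB

end Blocks

end Cfsg.Agent.Lib.PermWreath.Even
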