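import Cfsg.Agent.Lib.PermWreath.Even

/-!
# Maximality of the even part of the imprimitive wreath product
-/

set_option autoImplicit false
set_option linter.unusedSectionVars false

open Equiv Equiv.Perm MulAction
open Cfsg.Agent.Lib.PermWreath.Basic Cfsg.Agent.Lib.PermWreath.Even

namespace Cfsg.Agent.Lib.PermWreath.EvenMain

variable {Ω : Type*} [Fintype Ω] [DecidableEq Ω] {a b : ℕ}

theorem swap_comm_of_disj {p q r s : Ω} (h1 : p ≠ r) (h2 : p ≠ s) (h3 : q ≠ r) (h4 : q ≠ s) :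
    swap p q * swap r s = swap r s * swap p q := by
  have h := Equiv.swap_apply_apply (swap p q) r s
  rw [swap_apply_of_ne_of_ne h1.symm h3.symm, swap_apply_of_ne_of_ne h2.symm h4.symm] at h
  calc swap p q * swap r s = swap p q * swap r s * (swap p q)⁻¹ * swap p q := by group
    _ = swap r s * swap p q := by rw [← h]

theorem swap_conj2 (w : Perm Ω) (p q r s : Ω) :
    w * (swap p q * swap r s) * w⁻¹ = swap (w p) (w q) * swap (w r) (w s) := by
  rw [Equiv.swap_apply_apply, Equiv.swap_apply_apply]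
  group

section Pairs

variable {f : Ω → Fin b} {π : Ω → Ω} (h1 : ∀ x, π x ≠ x) (h2 : ∀ x, f (π x) = f x)
  (h3 : ∀ x y, f y = f x → y = x ∨ y = π x)

include h1 h2 h3

theorem pi_pi (x : Ω) : π (π x) = x := by
  rcases h3 (π x) x (h2 x).symm with h | h
  · exact absurd h.symm (h1 x)
  · exact h.symm

theorem pi_inj {x y : Ω} (h : π x = π y) : x = y := by
  rw [← pi_pi h1 h2 h3 x, h, pi_pi h1 h2 h3 y]

theorem ds_mem (x y : Ω) : swap x (π x) * swap y (π y) ∈ W f := by
  refine ⟨(pstab f).mul_mem (swap_mem (h2 x).symm) (swap_mem (h2 y).symm), ?_⟩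
  change sign _ = 1
  rw [map_mul, sign_swap (h1 x).symm, sign_swap (h1 y).symm]
  rfl

theorem bs_mem {p q : Ω} (hpq : f p ≠ f q) : swap p q * swap (π p) (π q) ∈ W f := by
  have hpq' : p ≠ q := fun h => hpq (by rw [h])
  have hpq'' : π p ≠ π q := fun h => hpq (by rw [← h2 p, ← h2 q, h])
  refine ⟨?_, ?_⟩
  · have key : ∀ x, f ((swap p q * swap (π p) (π q)) x) = swap (f p) (f q) (f x) := by
      intro x
      rw [Perm.mul_apply]
      have hq1 : π q ≠ p := fun h => hpq (by rw [← h, h2])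
      have hp1 : π p ≠ q := fun h => hpq (by rw [← h, h2])
      by_cases hx1 : x = π p
      · subst hx1
        rw [swap_apply_left, swap_apply_of_ne_of_ne hq1 (h1 q), h2, h2, swap_apply_left]
      by_cases hx2 : x = π q
      · subst hx2
        rw [swap_apply_right, swap_apply_of_ne_of_ne (h1 p) hp1, h2, h2, swap_apply_right]
      rw [swap_apply_of_ne_of_ne hx1 hx2]
      by_cases hx3 : x = p
      · subst hx3
        rw [swap_apply_left, swap_apply_left]
      by_cases hx4 : x = q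
      · subst hx4
        rw [swap_apply_right, swap_apply_right]
      rw [swap_apply_of_ne_of_ne hx3 hx4]
      have h5 : f x ≠ f p := fun h => (h3 p x h).elim hx3 hx1
      have h6 : f x ≠ f q := fun h => (h3 q x h).elim hx4 hx2
      rw [swap_apply_of_ne_of_ne h5 h6]
    intro x y
    rw [key, key]
    simp
  · change sign _ = 1
    rw [map_mul, sign_swap hpq', sign_swap hpq'']
    rfl

/-- The main combinatorial step producing a three-cycle. -/
theorem three_core {K : Subgroup (Perm Ω)} (hWK : W f ≤ K) (hb4 : b ≠ 4)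
    (hex : ∀ i : Fin b, ∃ x, f x = i)
    {Y Z p q : Ω} (hYZ : f Y ≠ f Z) (hpY : p ≠ Y) (hpZ : p ≠ Z) (hqY : q ≠ Y) (hqZ : q ≠ Z)
    (hpq : p ≠ q) (hs : swap Y Z * swap p q ∈ K)
    (hB2 : ¬ ((π p = Y ∨ π p = Z) ∧ (π q = Y ∨ π q = Z))) :
    ∃ c ∈ K, IsThreeCycle c := by
  have hYZ' : Y ≠ Z := fun h => hYZ (by rw [h])
  by_cases hq : q = π p
  · subst hq
    refine ⟨(swap Y (π Y) * swap p (π p)) * (swap Y Z * swap p (π p)),
      K.mul_mem (hWK (ds_mem h1 h2 h3 Y p)) hs, ?_⟩
    have e : (swap Y (π Y) * swap p (π p)) * (swap Y Z * swap p (π p)) =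
        swap Y (π Y) * swap Y Z := by
      rw [mul_assoc, ← mul_assoc (swap p (π p)) (swap Y Z),
        swap_comm_of_disj hpY hpZ hqY hqZ, mul_assoc (swap Y Z), swap_mul_self, mul_one]
    rw [e]
    refine isThreeCycle_swap_mul_swap_same (h1 Y).symm hYZ' ?_
    intro h
    exact hYZ (by rw [← h, h2])
  · have hfpq : f p ≠ f q := fun h => (h3 p q h.symm).elim (Ne.symm hpq) hq
    have ht : swap Y Z * swap (π p) (π q) ∈ K := by
      have := K.mul_mem hs (hWK (bs_mem h1 h2 h3 hfpq))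
      rwa [mul_assoc, ← mul_assoc (swap p q), swap_mul_self, one_mul] at this
    have hA : π p ≠ π q := fun h => hpq (pi_inj h1 h2 h3 h)
    by_cases hA1 : π p = Y
    · have hC1 : π q ≠ Z := fun h => hB2 ⟨Or.inl hA1, Or.inr h⟩
      have hC2 : π q ≠ Y := fun h => hA (hA1.trans h.symm)
      rw [hA1] at ht
      exact ⟨_, ht, isThreeCycle_swap_mul_swap_same hYZ' hC2.symm hC1.symm⟩
    by_cases hA2 : π p = Z
    · have hC1 : π q ≠ Y := fun h => hB2 ⟨Or.inr hA2, Or.inl h⟩
      have hC2 : π q ≠ Z := fun h => hA (hA2.trans h.symm)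
      rw [hA2, swap_comm Y Z] at ht
      exact ⟨_, ht, isThreeCycle_swap_mul_swap_same hYZ'.symm hC2.symm hC1.symm⟩
    by_cases hC1 : π q = Y
    · rw [hC1, swap_comm (π p) Y] at ht
      exact ⟨_, ht, isThreeCycle_swap_mul_swap_same hYZ' (Ne.symm hA1) (Ne.symm hA2)⟩
    by_cases hC2 : π q = Z
    · rw [hC2, swap_comm (π p) Z, swap_comm Y Z] at ht
      exact ⟨_, ht, isThreeCycle_swap_mul_swap_same hYZ'.symm (Ne.symm hA2) (Ne.symm hA1)⟩
    -- four distinct blocks
    have fne : ∀ {u v : Ω}, u ≠ v → π u ≠ v → f u ≠ f v := by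
      intro u v huv hu h
      exact (h3 u v h.symm).elim (Ne.symm huv) (Ne.symm hu)
    have hfpY : f p ≠ f Y := fne hpY hA1
    have hfpZ : f p ≠ f Z := fne hpZ hA2
    have hfqY : f q ≠ f Y := fne hqY hC1
    have hfqZ : f q ≠ f Z := fne hqZ hC2
    -- a free block
    have hfree : ∃ i : Fin b, i ≠ f Y ∧ i ≠ f Z ∧ i ≠ f p ∧ i ≠ f q := by
      by_contra hcon
      push Not at hcon
      have hsub : (Finset.univ : Finset (Fin b)) = {f Y, f Z, f p, f q} := by
        ext i
        simp only [Finset.mem_univ, Finset.mem_insert, Finset.mem_singleton, true_iff]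
        by_cases e1 : i = f Y
        · exact Or.inl e1
        by_cases e2 : i = f Z
        · exact Or.inr (Or.inl e2)
        by_cases e3 : i = f p
        · exact Or.inr (Or.inr (Or.inl e3))
        · exact Or.inr (Or.inr (Or.inr (hcon i e1 e2 e3)))
      have hc : ({f Y, f Z, f p, f q} : Finset (Fin b)).card = 4 := by
        rw [Finset.card_eq_succ]
        refine ⟨f Y, {f Z, f p, f q}, by simp [hYZ, hfpY.symm, hfqY.symm], rfl, ?_⟩
        rw [Finset.card_eq_three]
        exact ⟨f Z, f p, f q, hfpZ.symm, hfqZ.symm, hfpq, rfl⟩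
      rw [← hsub, Finset.card_univ, Fintype.card_fin] at hc
      exact hb4 hc
    obtain ⟨i, hi1, hi2, hi3, hi4⟩ := hfree
    obtain ⟨R, hR⟩ := hex i
    have hw : swap q (π q) * swap R (π R) ∈ K := hWK (ds_mem h1 h2 h3 q R)
    have hconj := K.mul_mem (K.mul_mem hw hs) (K.inv_mem hw)
    rw [swap_conj2] at hconj
    have fix : ∀ {u : Ω}, f u ≠ f q → f u ≠ i → (swap q (π q) * swap R (π R)) u = u := by
      intro u hu hu'
      have a1 : u ≠ R := fun h => hu' (by rw [h, hR])
      have a2 : u ≠ π R := fun h => hu' (by rw [h, h2, hR])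
      have a3 : u ≠ q := fun h => hu (by rw [h])
      have a4 : u ≠ π q := fun h => hu (by rw [h, h2])
      rw [Perm.mul_apply, swap_apply_of_ne_of_ne a1 a2, swap_apply_of_ne_of_ne a3 a4]
    rw [fix hfqY.symm hi1.symm, fix hfqZ.symm hi2.symm, fix hfpq hi3.symm] at hconj
    have hwq : (swap q (π q) * swap R (π R)) q = π q := by
      have a1 : q ≠ R := fun h => hi4 (by rw [← hR, h])
      have a2 : q ≠ π R := fun h => hi4 (by rw [← hR, h, h2])
      rw [Perm.mul_apply, swap_apply_of_ne_of_ne a1 a2, swap_apply_left]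
    rw [hwq] at hconj
    have hfinal := K.mul_mem hs hconj
    have e : swap Y Z * swap p q * (swap Y Z * swap p (π q)) = swap p q * swap p (π q) := by
      rw [mul_assoc, ← mul_assoc (swap p q), swap_comm_of_disj hpY hpZ hqY hqZ, mul_assoc (swap Y Z),
        ← mul_assoc, swap_mul_self, one_mul]
    rw [e] at hfinal
    refine ⟨_, hfinal, isThreeCycle_swap_mul_swap_same hpq ?_ (h1 q).symm⟩
    rintro h
    exact hfpq (by rw [h, h2])

/-- In the case of pairs, a three-cycle exists unless there are exactly four pairs. -/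
theorem three_of_pairs {K : Subgroup (Perm Ω)} (hWK : W f ≤ K) (hb4 : b ≠ 4) (hb3 : 3 ≤ b)
    (hex : ∀ i : Fin b, ∃ x, f x = i) (hK : ¬ K ≤ pstab f) : ∃ c ∈ K, IsThreeCycle c := by
  -- find a pair broken by an element of K
  have hbroken : ∃ g ∈ K, ∃ x y : Ω, f x = f y ∧ f (g x) ≠ f (g y) := by
    rw [SetLike.not_le_iff_exists] at hK
    obtain ⟨g, hgK, hg⟩ := hK
    rw [mem_pstab] at hg
    push Not at hg
    obtain ⟨x, y, h⟩ := hg
    rcases h with ⟨h4, h5⟩ | ⟨h4, h5⟩
    · exact ⟨g, hgK, x, y, h4, h5⟩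
    · refine ⟨g⁻¹, K.inv_mem hgK, g x, g y, h5, ?_⟩
      simpa using h4
  obtain ⟨g, hgK, x, y, hxy, hgxy⟩ := hbroken
  have hy : y = π x := by
    rcases h3 x y hxy.symm with h | h
    · exact absurd (by rw [h]) hgxy
    · exact h
  subst hy
  -- elements of K from pairs
  have hs : ∀ u, swap (g x) (g (π x)) * swap (g u) (g (π u)) ∈ K := by
    intro u
    have := K.mul_mem (K.mul_mem hgK (hWK (ds_mem h1 h2 h3 x u))) (K.inv_mem hgK)
    rwa [swap_conj2] at this
  -- two other blocks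
  have hother : ∃ u₁ u₂, f u₁ ≠ f x ∧ f u₂ ≠ f x ∧ f u₁ ≠ f u₂ := by
    have hcard : 2 < Fintype.card (Fin b) := by
      rw [Fintype.card_fin]
      omega
    obtain ⟨i, j, k, hij, hik, hjk⟩ := Fintype.two_lt_card_iff.mp hcard
    obtain ⟨u, hu⟩ := hex i
    obtain ⟨v, hv⟩ := hex j
    obtain ⟨w, hw⟩ := hex k
    subst hu hv hw
    by_cases e1 : f x = f u
    · exact ⟨v, w, fun h => hij (e1.symm.trans h.symm), fun h => hik (e1.symm.trans h.symm), hjk⟩
    by_cases e2 : f x = f v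
    · exact ⟨u, w, Ne.symm e1, fun h => hjk (e2.symm.trans h.symm), hik⟩
    · exact ⟨u, v, Ne.symm e1, Ne.symm e2, hij⟩
  obtain ⟨u₁, u₂, hu₁, hu₂, hu⟩ := hother
  have hcore : ∀ u, f u ≠ f x → ¬ ((π (g u) = g x ∨ π (g u) = g (π x)) ∧
      (π (g (π u)) = g x ∨ π (g (π u)) = g (π x))) → ∃ c ∈ K, IsThreeCycle c := by
    intro u hu hB2
    have hux : u ≠ x := fun h => hu (by rw [h])
    have hux' : u ≠ π x := fun h => hu (by rw [h, h2])
    have hpx : π u ≠ x := fun h => hu (by rw [← h, h2])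
    have hpx' : π u ≠ π x := fun h => hu (by rw [← h2 u, h, h2])
    have hi := g.injective
    exact three_core h1 h2 h3 hWK hb4 hex hgxy (hi.ne hux) (hi.ne hux') (hi.ne hpx) (hi.ne hpx')
      (hi.ne (h1 u).symm) (hs u) hB2
  by_cases hc1 : (π (g u₁) = g x ∨ π (g u₁) = g (π x)) ∧
      (π (g (π u₁)) = g x ∨ π (g (π u₁)) = g (π x))
  · by_cases hc2 : (π (g u₂) = g x ∨ π (g u₂) = g (π x)) ∧
        (π (g (π u₂)) = g x ∨ π (g (π u₂)) = g (π x))
    · exfalso
      have inj : ∀ {α β : Ω}, π (g α) = π (g β) → α = β := fun h =>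
        g.injective (pi_inj h1 h2 h3 h)
      have n1 : u₁ ≠ π u₁ := (h1 u₁).symm
      have n2 : u₁ ≠ u₂ := fun h => hu (by rw [h])
      have n3 : π u₁ ≠ u₂ := fun h => hu (by rw [← h, h2])
      rcases hc1.1 with a1 | a1 <;> rcases hc1.2 with a2 | a2 <;> rcases hc2.1 with a3 | a3
      · exact n1 (inj (a1.trans a2.symm))
      · exact n1 (inj (a1.trans a2.symm))
      · exact n2 (inj (a1.trans a3.symm))
      · exact n3 (inj (a2.trans a3.symm))
      · exact n3 (inj (a2.trans a3.symm))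
      · exact n2 (inj (a1.trans a3.symm))
      · exact n1 (inj (a1.trans a2.symm))
      · exact n1 (inj (a1.trans a2.symm))
    · exact hcore u₂ hu₂ hc2
  · exact hcore u₁ hu₁ hc1

end Pairs

/-- Partner map for blocks of size two. -/
theorem exists_partner {f : Ω → Fin b} (hf : ∀ i : Fin b, Nat.card {x : Ω // f x = i} = 2) :
    ∃ π : Ω → Ω, (∀ x, π x ≠ x) ∧ (∀ x, f (π x) = f x) ∧ ∀ x y, f y = f x → y = x ∨ y = π x := by
  have h : ∀ x, ∃ x', x' ≠ x ∧ f x' = f x ∧ ∀ y, f y = f x → y = x ∨ y = x' := by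
    intro x
    have hc := fibre_card f hf (f x)
    have hx : x ∈ Finset.univ.filter (fun y => f y = f x) := by simp
    have h1 : ((Finset.univ.filter (fun y => f y = f x)).erase x).card = 1 := by
      rw [Finset.card_erase_of_mem hx, hc]
    obtain ⟨x', hx'⟩ := Finset.card_eq_one.mp h1
    have hm : x' ∈ (Finset.univ.filter (fun y => f y = f x)).erase x := by simp [hx']
    rw [Finset.mem_erase, Finset.mem_filter] at hm
    refine ⟨x', hm.1, hm.2.2, fun y hy => ?_⟩
    by_cases hyx : y = x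
    · exact Or.inl hyx
    right
    have : y ∈ (Finset.univ.filter (fun y => f y = f x)).erase x := by
      simp [hyx, hy]
    rw [hx'] at this
    simpa using this
  choose π h1 h2 h3 using h
  exact ⟨π, h1, h2, h3⟩

set_option maxRecDepth 100000 in
set_option maxHeartbeats 4000000 in
set_option synthInstance.maxHeartbeats 400000 in
set_option synthInstance.maxSize 1000 in
theorem four_aux : ∀ G H : Perm (Fin 2 × Fin 2), sign G = 1 → sign H = 1 →
    ¬ (∀ x y, x.1 = y.1 ↔ (G x).1 = (G y).1) →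
    (∀ x y, x.1 = y.1 ↔ (H x).1 = (H y).1) ∨ (∀ x y, x.1 = y.1 ↔ ((G⁻¹ * H) x).1 = ((G⁻¹ * H) y).1) ∨
      (∀ x y, x.1 = y.1 ↔ ((G⁻¹ * G⁻¹ * H) x).1 = ((G⁻¹ * G⁻¹ * H) y).1) := by
  decide

theorem four_case {f : Ω → Fin 2} (hf : ∀ i : Fin 2, Nat.card {x : Ω // f x = i} = 2)
    {K : Subgroup (Perm Ω)} (hKA : K ≤ alternatingGroup Ω) (hWK : W f ≤ K) (hK : ¬ K ≤ pstab f) :
    alternatingGroup Ω ≤ K := by
  obtain ⟨e, he⟩ := exists_coords f hf
  rw [SetLike.not_le_iff_exists] at hK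
  obtain ⟨g, hgK, hg⟩ := hK
  have hmem : ∀ u : Perm Ω, (∀ x y, x.1 = y.1 ↔ (e.permCongrHom u x).1 = (e.permCongrHom u y).1) ↔
      u ∈ pstab f := by
    intro u
    have h1 : ∀ x, (e.permCongrHom u x).1 = f (u (e.symm x)) := by
      intro x
      rw [← he]
      rfl
    constructor
    · intro h x y
      have h2 := h (e x) (e y)
      rw [h1, h1, he, he] at h2
      simpa using h2
    · intro h x y
      have h2 := h (e.symm x) (e.symm y)
      rw [← he (e.symm x), ← he (e.symm y)] at h2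
      rw [h1, h1, ← h2]
      simp
  have hsign : ∀ u : Perm Ω, sign (e.permCongrHom u) = sign u := fun u => sign_permCongr e u
  intro h hh
  have hg1 : sign g = 1 := hKA hgK
  have hh1 : sign h = 1 := hh
  have key := four_aux (e.permCongrHom g) (e.permCongrHom h) (by rw [hsign, hg1])
    (by rw [hsign, hh1]) (by rw [hmem]; exact hg)
  rw [← map_inv, ← map_mul, ← map_mul, ← map_mul, hmem, hmem, hmem] at key
  have hW : ∀ u : Perm Ω, u ∈ pstab f → u ∈ alternatingGroup Ω → u ∈ K := fun u h1 h2 => hWK ⟨h1, h2⟩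
  have hgA : g ∈ alternatingGroup Ω := hKA hgK
  rcases key with k | k | k
  · exact hW _ k hh
  · have := K.mul_mem hgK (hW _ k (mul_mem (inv_mem hgA) hh))
    simpa using this
  · have := K.mul_mem hgK (K.mul_mem hgK (hW _ k (mul_mem (mul_mem (inv_mem hgA) (inv_mem hgA)) hh)))
    simpa [mul_assoc] using this

/-- The core statement: overgroups of the even partition stabilizer in the alternating group. -/
theorem alternating_le (f : Ω → Fin b) (hf : ∀ i : Fin b, Nat.card {x : Ω // f x = i} = a)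
    (ha : 2 ≤ a) (hb : 2 ≤ b) (hne : ¬ (a = 2 ∧ b = 4)) {K : Subgroup (Perm Ω)}
    (hKA : K ≤ alternatingGroup Ω) (hWK : W f ≤ K) (hK : ¬ K ≤ pstab f) :
    alternatingGroup Ω ≤ K := by
  by_cases h22 : a = 2 ∧ b = 2
  · obtain ⟨rfl, rfl⟩ := h22
    exact four_case hf hKA hWK hK
  have hprim := isPreprimitive_of hf ha hb h22 hWK hK
  have hthree : ∃ c ∈ K, IsThreeCycle c := by
    by_cases ha2 : a = 2
    · subst ha2
      obtain ⟨π, h1, h2, h3⟩ := exists_partner hf
      have hb4 : b ≠ 4 := fun h => hne ⟨rfl, h⟩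
      have hb3 : 3 ≤ b := by
        by_contra hcon
        exact h22 ⟨rfl, by omega⟩
      have hex : ∀ i : Fin b, ∃ x, f x = i := fun i => by
        obtain ⟨c, -, -, hc, -⟩ := exists_two f hf ha i
        exact ⟨c, hc⟩
      exact three_of_pairs h1 h2 h3 hWK hb4 hb3 hex hK
    · have ha3 : 3 ≤ a := by omega
      obtain ⟨x, -, -, -, -⟩ := exists_two f hf ha ⟨0, by omega⟩
      obtain ⟨c, d, hcd, hc, hd, hcx, hdx⟩ := exists_two_avoid f hf ha3 x
      have h3c := isThreeCycle_swap_mul_swap_same hcx.symm hdx.symm hcd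
      refine ⟨_, hWK ⟨(pstab f).mul_mem (swap_mem hc.symm) (swap_mem hd.symm), h3c.sign⟩, h3c⟩
  obtain ⟨c, hc, h3c⟩ := hthree
  exact alternatingGroup_le_of_isPreprimitive_of_isThreeCycle_mem hprim h3c hc

/-- The even partition stabilizer is a proper subgroup of the alternating group. -/
theorem exists_even_notMem (f : Ω → Fin b) (hf : ∀ i : Fin b, Nat.card {x : Ω // f x = i} = a)
    (ha : 2 ≤ a) (hb : 2 ≤ b) : ∃ c ∈ alternatingGroup Ω, c ∉ pstab f := by
  obtain ⟨x, x', hxx', hx, hx'⟩ := exists_two f hf ha ⟨0, by omega⟩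
  obtain ⟨y, -, -, hy, -⟩ := exists_two f hf ha ⟨1, by omega⟩
  have hfy : f x ≠ f y := by
    rw [hx, hy]
    simp [Fin.ext_iff]
  have hxy : x ≠ y := fun h => hfy (by rw [h])
  have hxy' : x' ≠ y := fun h => hfy (by rw [hx, ← hx', h])
  have h3c := isThreeCycle_swap_mul_swap_same hxx' hxy hxy'
  refine ⟨_, h3c.sign, fun hmem => ?_⟩
  have h1 := (hmem x x').mp (by rw [hx, hx'])
  rw [Perm.mul_apply, Perm.mul_apply, swap_apply_left, swap_apply_of_ne_of_ne hxy.symm hxy'.symm,
    swap_apply_of_ne_of_ne hxx'.symm hxy', swap_apply_right] at h1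
  exact hfy h1.symm

/-- The main theorem. -/
theorem main (h8 : Fintype.card Ω ≠ 8) (ha : 2 ≤ a) (hb : 2 ≤ b)
    (f : Ω → Fin b) (hf : ∀ i : Fin b, Nat.card {x : Ω // f x = i} = a) :
    IsCoatom ((Subgroup.closure {g : Perm Ω | ∀ x y : Ω, f x = f y ↔ f (g x) = f (g y)} ⊓
      alternatingGroup Ω).subgroupOf (alternatingGroup Ω)) := by
  rw [closure_eq]
  have hne : ¬ (a = 2 ∧ b = 4) := by
    rintro ⟨rfl, rfl⟩
    obtain ⟨e, -⟩ := exists_coords f hf
    apply h8
    rw [Fintype.card_congr e]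
    simp
  constructor
  · intro htop
    obtain ⟨c, hc, hc'⟩ := exists_even_notMem f hf ha hb
    have h1 : (⟨c, hc⟩ : alternatingGroup Ω) ∈ (W f).subgroupOf (alternatingGroup Ω) := by
      rw [htop]
      trivial
    exact hc' (Subgroup.mem_subgroupOf.mp h1).1
  · intro L hL
    obtain ⟨y, hyL, hy⟩ := SetLike.exists_of_lt hL
    let K : Subgroup (Perm Ω) := L.map (alternatingGroup Ω).subtype
    have hKA : K ≤ alternatingGroup Ω := by
      rintro _ ⟨z, -, rfl⟩
      exact z.2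
    have hWK : W f ≤ K := by
      intro z hz
      exact ⟨⟨z, hz.2⟩, hL.le (Subgroup.mem_subgroupOf.mpr hz), rfl⟩
    have hK : ¬ K ≤ pstab f := by
      intro hle
      exact hy (Subgroup.mem_subgroupOf.mpr ⟨hle ⟨y, hyL, rfl⟩, y.2⟩)
    have hle := alternating_le f hf ha hb hne hKA hWK hK
    rw [eq_top_iff]
    intro z _
    obtain ⟨z', hz', hzz'⟩ := hle z.2
    have : z' = z := Subtype.ext hzz'
    rwa [← this]

end Cfsg.Agent.Lib.PermWreath.EvenMain
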